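import Cfsg.Agent.Lib.Helper9.S4033.Defs

/-!
# S4033 package [F1a] (helper73)

A minimal noncentral normal subgroup `K` inside a solvable normal subgroup `N`, when
`O_p(G) = 1`: commutators of `K` are central in `G`, `K` is a `p'`-group and the
`r`-elements of `K` are closed under products.
-/

set_option autoImplicit false

namespace Cfsg.Agent.Lib.Helper73.S4033

open Cfsg.Agent.Lib.Helper9.S4033

universe u

theorem pkgF1a : PkgF1a.{u} := by
  intro G _ _ p hp hOp N hN hNsol hNZ
  classical
  have hex : ∃ n : ℕ, ∃ K : Subgroup G, K.Normal ∧ K ≤ N ∧ ¬ K ≤ Subgroup.center G ∧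
      Nat.card K = n := ⟨Nat.card N, N, hN, le_refl _, hNZ, rfl⟩
  obtain ⟨K, hKn, hKN, hKZ, hKc⟩ := Nat.find_spec hex
  have hmin : ∀ K' : Subgroup G, K'.Normal → K' ≤ N → ¬ K' ≤ Subgroup.center G →
      Nat.card K ≤ Nat.card K' := by
    intro K' h1 h2 h3
    rw [hKc]
    exact Nat.find_min' hex ⟨K', h1, h2, h3, rfl⟩
  have := hKn
  have hKsol : Group.IsSolvable K :=
    Group.isSolvable_of_isSolvable_injective (Subgroup.inclusion_injective hKN)
  have hKnt : Nontrivial K := by
    rw [Subgroup.nontrivial_iff_ne_bot]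
    rintro rfl
    exact hKZ bot_le
  -- the commutator subgroup of `K` is central in `G`
  have hcomm : ⁅K, K⁆ ≤ Subgroup.center G := by
    by_contra hc
    have hn : (⁅K, K⁆ : Subgroup G).Normal := inferInstance
    have hle : ⁅K, K⁆ ≤ K := Subgroup.commutator_le_right K K
    have hcard := hmin ⁅K, K⁆ hn (hle.trans hKN) hc
    have heq : ⁅K, K⁆ = K := Subgroup.eq_of_le_of_card_ge hle hcard
    have hlt := Group.IsSolvable.commutator_lt_top_of_nontrivial K
    have h1 : (commutator K).map K.subtype = ⁅K, K⁆ := Subgroup.map_subtype_commutator K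
    have h2 : commutator K = ⊤ := by
      apply Subgroup.map_injective K.subtype_injective
      rw [h1, heq, ← MonoidHom.range_eq_map, Subgroup.range_subtype]
    exact hlt.ne h2
  have hcen : ∀ x ∈ K, ∀ y ∈ K, x * y * x⁻¹ * y⁻¹ ∈ Subgroup.center G := fun x hx y hy =>
    hcomm (Subgroup.commutator_mem_commutator hx hy)
  -- `K` is nilpotent
  have hKnil : Group.IsNilpotent K := by
    rw [Subgroup.nilpotent_iff_lowerCentralSeries]
    refine ⟨2, ?_⟩
    show ⁅⁅(⊤ : Subgroup K), ⊤⁆, (⊤ : Subgroup K)⁆ = ⊥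
    rw [Subgroup.commutator_eq_bot_iff_le_centralizer, Subgroup.commutator_le]
    intro g1 _ g2 _
    rw [Subgroup.mem_centralizer_iff]
    intro h _
    have := hcen g1 g1.2 g2 g2.2
    rw [Subgroup.mem_center_iff] at this
    apply Subtype.ext
    simpa [commutatorElement_def] using this h
  refine ⟨K, hKn, hKN, hKZ, hcen, ?_, ?_⟩
  · have : Fact p.Prime := ⟨hp⟩
    rw [Nat.coprime_comm, Nat.Prime.coprime_iff_not_dvd hp]
    intro hdvd
    let P : Sylow p K := default
    have hPne : (P : Subgroup K) ≠ ⊥ := P.ne_bot_of_dvd_card hdvd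
    have hPn : (P : Subgroup K).Normal := inferInstance
    have : (P : Subgroup K).Characteristic := P.characteristic_of_normal hPn
    have hmapn : ((P : Subgroup K).map K.subtype).Normal :=
      ConjAct.normal_of_characteristic_of_normal
    have hpg : IsPGroup p ((P : Subgroup K).map K.subtype) := P.2.map K.subtype
    have := hOp _ hmapn hpg
    exact hPne ((Subgroup.map_eq_bot_iff_of_injective _ K.subtype_injective).1 this)
  · intro r hr x hx y hy ⟨k1, hk1⟩ ⟨k2, hk2⟩
    have : Fact r.Prime := ⟨hr⟩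
    let R : Sylow r K := default
    have hRn : (R : Subgroup K).Normal := inferInstance
    have huniq : ∀ Q : Sylow r K, Q = R := by
      have := Sylow.unique_of_normal R hRn
      intro Q
      exact Subsingleton.elim _ _
    have key : ∀ (z : G) (hz : z ∈ K) (k : ℕ), orderOf z = r ^ k →
        (⟨z, hz⟩ : K) ∈ (R : Subgroup K) := by
      intro z hz k hk
      have hpg : IsPGroup r (Subgroup.zpowers (⟨z, hz⟩ : K)) := by
        apply IsPGroup.of_card (n := k)
        rw [Nat.card_zpowers, Subgroup.orderOf_mk, hk]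
      obtain ⟨Q, hQ⟩ := hpg.exists_le_sylow
      rw [huniq Q] at hQ
      exact hQ (Subgroup.mem_zpowers _)
    have hxy : ((⟨x, hx⟩ : K) * ⟨y, hy⟩) ∈ (R : Subgroup K) :=
      mul_mem (key x hx k1 hk1) (key y hy k2 hk2)
    obtain ⟨k, hk⟩ := R.2 ⟨_, hxy⟩
    have h1 : (x * y) ^ r ^ k = 1 := by
      have := congrArg (fun g : (R : Subgroup K) => ((g : K) : G)) hk
      simpa using this
    obtain ⟨j, -, hj⟩ := (Nat.dvd_prime_pow hr).1 (orderOf_dvd_of_pow_eq_one h1)
    exact ⟨j, hj⟩

end Cfsg.Agent.Lib.Helper73.S4033
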