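import Cfsg.Agent.Lib.Helper9.S4033.Defs

/-!
# S4033 package [Q] (helper73)

Passage to the quotient by a normal `p`-subgroup `M`: either `|G| = p^k * a`, or `G ⧸ M`
satisfies `HypX` and `TwoPrimes` again.
-/

set_option autoImplicit false

namespace Cfsg.Agent.Lib.Helper73.S4033

open Cfsg.Agent.Lib.Helper9.S4033

universe u

/-- Counting: a subgroup `C` with `|C| = p^k * a` (`a` prime to `p`), mapped to `G ⧸ M` for a
normal `p`-subgroup `M`, has an image of order `p^j * a`. -/
theorem card_range_mk_comp_subtype {G : Type u} [Group G] [Finite G] {p a : ℕ} (hp : p.Prime)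
    (ha : a.Coprime p) (M : Subgroup G) [M.Normal] (hM : IsPGroup p M) (C : Subgroup G) (k : ℕ)
    (hC : Nat.card C = p ^ k * a) :
    ∃ j : ℕ, Nat.card (((QuotientGroup.mk' M).comp C.subtype).range) = p ^ j * a := by
  have : Fact p.Prime := ⟨hp⟩
  set f : C →* G ⧸ M := (QuotientGroup.mk' M).comp C.subtype with hf
  have hker : IsPGroup p f.ker := by
    intro g
    have hg : ((g : C) : G) ∈ M := by
      have h1 := g.2
      rw [MonoidHom.mem_ker] at h1
      have h2 : (QuotientGroup.mk ((g : C) : G) : G ⧸ M) = 1 := h1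
      exact (QuotientGroup.eq_one_iff _).1 h2
    obtain ⟨n, hn⟩ := hM ⟨_, hg⟩
    refine ⟨n, ?_⟩
    apply Subtype.ext
    apply Subtype.ext
    have h3 := congrArg (fun z : M => (z : G)) hn
    simpa using h3
  obtain ⟨l, hl⟩ := IsPGroup.iff_card.1 hker
  have h1 : Nat.card f.ker * f.ker.index = Nat.card C := Subgroup.card_mul_index f.ker
  rw [Subgroup.index_ker, hl, hC] at h1
  have hle : l ≤ k := by
    have hdvd : p ^ l ∣ p ^ k * a := Dvd.intro _ h1
    have h4 : p ^ l ∣ p ^ k :=
      (Nat.Coprime.dvd_mul_right (Nat.Coprime.pow_left l ha.symm)).1 hdvd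
    exact (Nat.pow_dvd_pow_iff_le_right hp.one_lt).1 h4
  refine ⟨k - l, ?_⟩
  have h2 : p ^ k = p ^ l * p ^ (k - l) := by rw [← pow_add, Nat.add_sub_cancel' hle]
  rw [h2, mul_assoc] at h1
  exact Nat.eq_of_mul_eq_mul_left (pow_pos hp.pos l) h1

theorem pkgQ (hQa : PkgQa.{u}) : PkgQ.{u} := by
  intro G _ _ p a hp ha hX hTwo M _ hM
  have : Fact p.Prime := ⟨hp⟩
  obtain ⟨hQ1, hQ2⟩ := hQa G p hp M hM
  by_cases hA : ∃ x : G, (orderOf x).Coprime p ∧ x ∉ Subgroup.center G ∧
      (QuotientGroup.mk x : G ⧸ M) ∈ Subgroup.center (G ⧸ M)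
  · left
    obtain ⟨x, hx1, hx2, hx3⟩ := hA
    obtain ⟨-, k, hk⟩ := hX x hx1 hx2
    obtain ⟨j, hj⟩ := card_range_mk_comp_subtype hp ha M hM (Subgroup.centralizer {x}) k hk
    have hsurj : ((QuotientGroup.mk' M).comp
        (Subgroup.centralizer ({x} : Set G)).subtype).range = ⊤ := by
      rw [eq_top_iff]
      intro ybar _
      obtain ⟨y, rfl⟩ := QuotientGroup.mk_surjective ybar
      have hy : (QuotientGroup.mk y : G ⧸ M) ∈
          Subgroup.centralizer ({(QuotientGroup.mk x : G ⧸ M)} : Set (G ⧸ M)) := by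
        rw [Subgroup.mem_centralizer_singleton_iff]
        exact Subgroup.mem_center_iff.1 hx3 _
      obtain ⟨c, hc, hcy⟩ := hQ1 x hx1 y hy
      exact ⟨⟨c, hc⟩, hcy⟩
    rw [hsurj, Subgroup.card_top] at hj
    obtain ⟨m, hm⟩ := IsPGroup.iff_card.1 hM
    refine ⟨j + m, ?_⟩
    rw [Subgroup.card_eq_card_quotient_mul_card_subgroup M, hj, hm, pow_add]
    ring
  · right
    push Not at hA
    constructor
    · intro ubar hu1 hu2
      obtain ⟨c0, rfl⟩ := QuotientGroup.mk_surjective ubar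
      obtain ⟨u, -, hup, hu⟩ := hQ2 ⊤ c0 (Subgroup.mem_top _) hu1
      have hunc : u ∉ Subgroup.center G := by
        intro hc
        apply hu2
        rw [← hu, Subgroup.mem_center_iff]
        intro gbar
        obtain ⟨g, rfl⟩ := QuotientGroup.mk_surjective gbar
        rw [← QuotientGroup.mk_mul, ← QuotientGroup.mk_mul, Subgroup.mem_center_iff.1 hc g]
      obtain ⟨hcen, k, hk⟩ := hX u hup hunc
      have hrange : ((QuotientGroup.mk' M).comp
          (Subgroup.centralizer ({u} : Set G)).subtype).range =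
          Subgroup.centralizer ({(QuotientGroup.mk c0 : G ⧸ M)} : Set (G ⧸ M)) := by
        rw [← hu]
        apply le_antisymm
        · rintro _ ⟨⟨c, hc⟩, rfl⟩
          rw [Subgroup.mem_centralizer_singleton_iff] at hc ⊢
          show (QuotientGroup.mk c : G ⧸ M) * QuotientGroup.mk u =
            QuotientGroup.mk u * QuotientGroup.mk c
          rw [← QuotientGroup.mk_mul, ← QuotientGroup.mk_mul, hc]
        · intro ybar hy
          obtain ⟨y, rfl⟩ := QuotientGroup.mk_surjective ybar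
          obtain ⟨c, hc, hcy⟩ := hQ1 u hup y hy
          exact ⟨⟨c, hc⟩, hcy⟩
      constructor
      · intro ybar hy hyp cbar hc
        rw [← hrange] at hy hc
        obtain ⟨⟨y0, hy0⟩, rfl⟩ := hy
        obtain ⟨⟨c, hc'⟩, rfl⟩ := hc
        obtain ⟨y, hyC, hyp', hyy⟩ := hQ2 (Subgroup.centralizer {u}) y0 hy0 hyp
        have h5 := hcen y hyC hyp' c hc'
        show (QuotientGroup.mk y0 : G ⧸ M) * QuotientGroup.mk c =
          QuotientGroup.mk c * QuotientGroup.mk y0
        rw [← hyy, ← QuotientGroup.mk_mul, ← QuotientGroup.mk_mul, h5]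
      · obtain ⟨j, hj⟩ :=
          card_range_mk_comp_subtype hp ha M hM (Subgroup.centralizer {u}) k hk
        rw [hrange] at hj
        exact ⟨j, hj⟩
    · obtain ⟨s, t, hs, ht, hst, hsp, htp, hNs, hNt⟩ := hTwo
      have key : ∀ r : ℕ, r.Prime → r ≠ p → NC G r → NC (G ⧸ M) r := by
        intro r hr hrp ⟨x, hx, k, hk⟩
        have hcop : (orderOf x).Coprime p := by
          rw [hk]
          exact Nat.Coprime.pow_left k ((Nat.coprime_primes hr hp).2 hrp)
        refine ⟨QuotientGroup.mk x, hA x hcop hx, ?_⟩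
        have hdvd : orderOf (QuotientGroup.mk x : G ⧸ M) ∣ r ^ k := by
          rw [← hk]
          exact orderOf_map_dvd (QuotientGroup.mk' M) x
        obtain ⟨j, -, hj⟩ := (Nat.dvd_prime_pow hr).1 hdvd
        exact ⟨j, hj⟩
      exact ⟨s, t, hs, ht, hst, hsp, htp, key s hs hsp hNs, key t ht htp hNt⟩

end Cfsg.Agent.Lib.Helper73.S4033
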